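import Mathlib
import Cfsg.Agent.H952.F4.Scott

/-!
# S5927, S5928: `sixc_two`, abstract definitions (helper958)

`P` is the three-fold cover of `A₆` with centre `⟨ζ⟩`, `z` of order 5; `⟨z, xx z g₁⟩`, `⟨z, xx z g₂⟩` are the canonical
lifts of the two subgroups `A₅` of the two classes containing (the image of) `z`.
-/

set_option autoImplicit false

namespace Cfsg.Agent.H958.SixC

open Module
open Cfsg.Agent.H952.F4 (ev es)

section
variable {P : Type*} [Group P]

/-- the second generator (an involution) of `A₅` -/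
def xx (z g : P) : P := g * z * z * g * z⁻¹ * z⁻¹ * g

/-- relations of `z`, `g` (one class of subgroups `A₅`) -/
structure Half (ζ z g β : P) : Prop where
  z5 : z ^ 5 = 1
  gg : g * g = 1
  r2 : g * z⁻¹ * z⁻¹ * g * z * g = z * xx z g * z⁻¹ * xx z g * z⁻¹ * β
  r4 : g * z * g * z⁻¹ * g = xx z g * z * xx z g * z⁻¹ * xx z g
  gen : Subgroup.closure {z, g} = ⊤
  c3 : (xx z g * z) ^ 3 = 1
  t3 : ∃ b, b * (xx z g * z) * b⁻¹ = ζ * (xx z g * z)

/-- relations of `P` -/
structure Full (ζ z g₁ g₂ β t a : P) : Prop where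
  cen : ∀ g, g * ζ = ζ * g
  cube : ζ ^ 3 = 1
  beta : β = ζ ∨ β = ζ⁻¹
  h1 : Half ζ z g₁ β
  h2 : Half ζ z g₂ β⁻¹
  tt : t * t = 1
  tz : t * z * t⁻¹ = z⁻¹
  /-- the two subgroups `A₅` generate `P` -/
  gen12 : Subgroup.closure {z, xx z g₁, xx z g₂} = ⊤
  a3 : a ^ 3 = 1
  a3' : (a⁻¹ * z) ^ 3 = 1
  ta : ∃ b, b * a * b⁻¹ = ζ * a
  ta' : ∃ b, b * (a⁻¹ * z) * b⁻¹ = ζ * (a⁻¹ * z)
  gena : Subgroup.closure {a, a⁻¹ * z} = ⊤

end

section
variable {F P M : Type*} [Field F] [Group P] [AddCommGroup M] [Module F M]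

/-- stable subspaces -/
def St (ρ : Representation F P M) (W : Submodule F M) : Prop := ∀ g, ∀ w ∈ W, ρ g w ∈ W

/-- vectors fixed by the subgroup `⟨z, xx z g⟩ ≅ A₅` -/
def KF (ρ : Representation F P M) (z g : P) (w : M) : Prop := ρ z w = w ∧ ρ (xx z g) w = w

/-- the central element `ζ` acts as the scalar `c ≠ 1` with `c³ = 1` -/
structure Ch (ρ : Representation F P M) (ζ : P) (c : F) : Prop where
  act : ∀ v, ρ ζ v = c • v
  ne : c ≠ 1
  cube : c ^ 3 = 1

/-- the candidate for the 3-dimensional submodule generated by a fixed vector -/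
def S3 (ρ : Representation F P M) (z g : P) (w : M) : Submodule F M :=
  Submodule.span F {ρ g w, ρ z (ρ g w), ρ z (ρ z (ρ g w))}

end

end Cfsg.Agent.H958.SixC
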