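import Mathlib
import Cfsg.Agent.H163.E6.Bgrp
import Cfsg.Agent.H163.E6.Semi
import Cfsg.Agent.H958.SixC.Defs

/-!
# S5927, S5928: `sixc_two`, concrete definitions (helper958)
-/

set_option autoImplicit false

namespace Cfsg.Agent.H163.E6.SixC

open Cfsg Cfsg.Lie Module Equiv
open Cfsg.Agent.ChevalleyStructure.E6Min.Tables Cfsg.Agent.ChevalleyStructure.E6Min.Basic
  Cfsg.Agent.ChevalleyStructure.E6Min.Adjoint
open Cfsg.Agent.H952.F4 (ev es matRep sh cr tf MaxAlt)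

universe u

/-- `(0 1 2 3 4)` -/
def z0 : ↥(alternatingGroup (Fin 6)) := ⟨c[0, 1, 2, 3, 4], Perm.mem_alternatingGroup.2 (by decide +kernel)⟩
/-- `(0 5)(1 2)` -/
def g10 : ↥(alternatingGroup (Fin 6)) := ⟨c[0, 5] * c[1, 2], Perm.mem_alternatingGroup.2 (by decide +kernel)⟩
/-- `(2 3)(4 5)` -/
def g20 : ↥(alternatingGroup (Fin 6)) := ⟨c[2, 3] * c[4, 5], Perm.mem_alternatingGroup.2 (by decide +kernel)⟩
/-- `(1 4)(2 3)` -/
def t0 : ↥(alternatingGroup (Fin 6)) := ⟨c[1, 4] * c[2, 3], Perm.mem_alternatingGroup.2 (by decide +kernel)⟩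
/-- `(0 1 2)` -/
def a0 : ↥(alternatingGroup (Fin 6)) := ⟨c[0, 1, 2], Perm.mem_alternatingGroup.2 (by decide +kernel)⟩
/-- `(3 4 5)` -/
def b0 : ↥(alternatingGroup (Fin 6)) := ⟨c[3, 4, 5], Perm.mem_alternatingGroup.2 (by decide +kernel)⟩

variable {F : Type u} [Field F]

/-- dimensions of stable subspaces are divisible by 3 -/
def Div3 (φ : ↥(alternatingGroup (Fin 6)) →* ↥(chevE6.group F)) : Prop :=
  ∀ ρ : Representation F ↥(Zgrp F) (I27 → F), (ρ = V F ∨ ρ = V' F) → ∀ W : Submodule F (I27 → F), Stab ρ φ.range W →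
    3 ∣ finrank F ↥W

/-- a derivation commuting with the preimage of the alternating group -/
structure Dr (φ : ↥(alternatingGroup (Fin 6)) →* ↥(chevE6.group F)) (D D' : (I27 → F) →ₗ[F] (I27 → F)) : Prop where
  ne : D ≠ 0
  comm : ∀ g, ad F g ∈ φ.range → ∀ x, V F g (D x) = D (V F g x)
  comm' : ∀ g, ad F g ∈ φ.range → ∀ x, V' F g (D' x) = D' (V' F g x)
  tfD : ∀ x y, tf (D x) y = tf x (D' y)
  crD : ∀ x y, D' (cr x y) = cr (D x) y + cr x (D y)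
  crD' : ∀ x y, D (cr x y) = cr (D' x) y + cr x (D' y)
  shD : ∀ x, D' (sh x) = cr (D x) x
  shD' : ∀ x, D (sh x) = cr (D' x) x
  small : ∀ k : ℕ, D ^ (2 ^ k) ≠ 0 → D ^ (2 ^ (k + 1)) = 0 → 6 < finrank F ↥(LinearMap.range (D ^ (2 ^ k)))

end Cfsg.Agent.H163.E6.SixC
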