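import Mathlib
import Cfsg.Agent.H958.SixC.Defs

/-!
# S5927, S5928: `sixc_two`, the hexacode (helper958)
-/

set_option autoImplicit false

namespace Cfsg.Agent.H958.SixC

open Module
open Cfsg.Agent.H952.F4 (ev es)

variable {F P M : Type*} [Field F] [Group P] [AddCommGroup M] [Module F M]

/-- the scalar `b` of the central element `β`, characteristic 2 -/
structure Sc (ρ : Representation F P M) (β : P) (b : F) : Prop where
  act : ∀ v, ρ β v = b • v
  b2 : b * b + b + 1 = 0
  two : (2 : F) = 0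

theorem mul_ap (ρ : Representation F P M) (x y : P) (v : M) : ρ (x * y) v = ρ x (ρ y v) := by
  rw [map_mul]; rfl

theorem inv_ap (ρ : Representation F P M) (x : P) (v : M) : ρ x⁻¹ (ρ x v) = v := by
  rw [← mul_ap, inv_mul_cancel, map_one]; rfl

theorem ap_inv (ρ : Representation F P M) (x : P) (v : M) : ρ x (ρ x⁻¹ v) = v := by
  rw [← mul_ap, mul_inv_cancel, map_one]; rfl

theorem inv_eq {ρ : Representation F P M} {x : P} {v w : M} (h : ρ x v = w) : ρ x⁻¹ w = v := by
  rw [← h, inv_ap]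

theorem five_mul (z : P) : z * z * z * z * z = z ^ 5 := by
  rw [pow_succ, pow_succ, pow_succ, pow_succ, pow_one]

/-- monomial action of `z` and `g` on six vectors -/
structure Hx (ρ : Representation F P M) (z g : P) (b : F) (w0 w1 w2 w3 w4 w5 : M) : Prop where
  z0 : ρ z w0 = w1
  z1 : ρ z w1 = w2
  z2 : ρ z w2 = w3
  z3 : ρ z w3 = w4
  z4 : ρ z w4 = w0
  z5 : ρ z w5 = w5
  g0 : ρ g w0 = w5
  g1 : ρ g w1 = b • w2
  g2 : ρ g w2 = (b * b) • w1
  g3 : ρ g w3 = w3
  g4 : ρ g w4 = w4
  g5 : ρ g w5 = w0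

theorem Hx.of_KF {ζ z g β : P} (hh : Half ζ z g β) {ρ : Representation F P M} {b : F} (hs : Sc ρ β b) {w : M}
    (k : KF ρ z g w) :
    Hx ρ z g b (ρ g w) (ρ z (ρ g w)) (ρ z (ρ z (ρ g w))) (ρ z (ρ z (ρ z (ρ g w)))) (ρ z (ρ z (ρ z (ρ z (ρ g w))))) w := by
  obtain ⟨kz, kx⟩ := k
  have z5 : ∀ v, ρ z (ρ z (ρ z (ρ z (ρ z v)))) = v := fun v => by
    have h := hh.z5
    rw [← mul_ap, ← mul_ap, ← mul_ap, ← mul_ap, show z * z * z * z * z = z ^ 5 from five_mul z, h, map_one]
    rfl
  have gg : ∀ v, ρ g (ρ g v) = v := fun v => by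
    rw [← mul_ap, hh.gg, map_one]
    rfl
  set w0 := ρ g w with hw0
  set w1 := ρ z w0 with hw1
  set w2 := ρ z w1 with hw2
  set w3 := ρ z w2 with hw3
  set w4 := ρ z w3 with hw4
  have h4 : ρ z w4 = w0 := z5 w0
  have i0 : ρ z⁻¹ w0 = w4 := inv_eq h4
  have i4 : ρ z⁻¹ w4 = w3 := inv_eq rfl
  have i3 : ρ z⁻¹ w3 = w2 := inv_eq rfl
  have i2 : ρ z⁻¹ w2 = w1 := inv_eq rfl
  have i1 : ρ z⁻¹ w1 = w0 := inv_eq rfl
  have iz : ρ z⁻¹ w = w := inv_eq kz
  have g3 : ρ g w3 = w3 := by
    have h := kx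
    rw [xx] at h
    simp only [mul_ap] at h
    rw [← hw0, i0, i4] at h
    have h1 := congrArg (ρ g) h
    rw [gg, ← hw0] at h1
    have h2 := congrArg (ρ z⁻¹) h1
    rw [inv_ap, i0] at h2
    have h3 := congrArg (ρ z⁻¹) h2
    rw [inv_ap, i4] at h3
    exact h3
  have g4 : ρ g w4 = w4 := by
    have h : ρ (g * z * g * z⁻¹ * g) w = w := by
      rw [hh.r4]
      simp only [mul_ap]
      rw [kx, iz, kx, kz, kx]
    simp only [mul_ap] at h
    rw [← hw0, i0] at h
    have h1 := congrArg (ρ g) h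
    rw [gg, ← hw0] at h1
    have h2 := congrArg (ρ z⁻¹) h1
    rw [inv_ap, i0] at h2
    exact h2
  have g1 : ρ g w1 = b • w2 := by
    have h : ρ (g * z⁻¹ * z⁻¹ * g * z * g) w = b • w := by
      rw [hh.r2]
      simp only [mul_ap]
      rw [hs.act, map_smul, map_smul, map_smul, map_smul, map_smul, iz, kx, iz, kx, kz]
    simp only [mul_ap] at h
    rw [← hw0, ← hw1] at h
    have h1 := congrArg (ρ g) h
    rw [gg, map_smul, ← hw0] at h1
    have h2 := congrArg (ρ z) h1
    rw [ap_inv, map_smul, ← hw1] at h2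
    have h3 := congrArg (ρ z) h2
    rw [ap_inv, map_smul, ← hw2] at h3
    exact h3
  have g2 : ρ g w2 = (b * b) • w1 := by
    have h := congrArg (ρ g) g1
    rw [gg, map_smul] at h
    rw [h, smul_smul]
    have hb := hs.b2
    have h2 := hs.two
    have : b * b * b = 1 := by grind
    rw [this, one_smul]
  exact ⟨rfl, rfl, rfl, rfl, h4, kz, gg w, g1, g2, g3, g4, rfl⟩

/-- the hexacode relation -/
def rr (ρ : Representation F P M) (z g : P) (b : F) (w : M) : M :=
  ρ g w + b • ρ z (ρ g w) + b • ρ z (ρ z (ρ g w)) + ρ z (ρ z (ρ z (ρ g w)))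

section
variable {ρ : Representation F P M} {z g : P} {b : F} {w0 w1 w2 w3 w4 w5 : M}

theorem stab_of_gen {ζ β : P} (hh : Half ζ z g β) {W : Submodule F M} (hz : ∀ w ∈ W, ρ z w ∈ W)
    (hg : ∀ w ∈ W, ρ g w ∈ W) : St ρ W := by
  have key : ∀ a : P, (∀ w ∈ W, ρ a w ∈ W) ∧ (∀ w ∈ W, ρ a⁻¹ w ∈ W) := by
    intro a
    have ha : a ∈ Subgroup.closure {z, g} := by rw [hh.gen]; exact Subgroup.mem_top a
    induction ha using Subgroup.closure_induction with
    | mem x hx =>
      rcases hx with rfl | rfl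
      · refine ⟨hz, fun w hw => ?_⟩
        have h1 : x⁻¹ = x * x * x * x := by
          have := hh.z5
          rw [eq_comm, eq_inv_iff_mul_eq_one]
          rw [← this, ← five_mul]
        rw [h1]
        simp only [mul_ap]
        exact hz _ (hz _ (hz _ (hz _ hw)))
      · refine ⟨hg, fun w hw => ?_⟩
        have h1 : x⁻¹ = x := by
          rw [inv_eq_iff_mul_eq_one]
          exact hh.gg
        rw [h1]
        exact hg _ hw
    | one =>
      refine ⟨fun w hw => ?_, fun w hw => ?_⟩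
      · rw [map_one]; exact hw
      · rw [inv_one, map_one]; exact hw
    | mul x y _ _ hx hy =>
      refine ⟨fun w hw => ?_, fun w hw => ?_⟩
      · rw [mul_ap]; exact hx.1 _ (hy.1 _ hw)
      · rw [mul_inv_rev, mul_ap]; exact hy.2 _ (hx.2 _ hw)
    | inv x _ hx =>
      refine ⟨hx.2, fun w hw => ?_⟩
      rw [inv_inv]; exact hx.1 _ hw
  exact fun g w hw => (key g).1 w hw

theorem span3_stable {x y v : M} {T : M →ₗ[F] M} (h1 : T x ∈ Submodule.span F {x, y, v})
    (h2 : T y ∈ Submodule.span F {x, y, v}) (h3 : T v ∈ Submodule.span F {x, y, v}) :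
    ∀ w ∈ Submodule.span F {x, y, v}, T w ∈ Submodule.span F {x, y, v} := by
  intro w hw
  induction hw using Submodule.span_induction with
  | mem a ha =>
    rcases ha with rfl | rfl | rfl
    · exact h1
    · exact h2
    · exact h3
  | zero => rw [map_zero]; exact Submodule.zero_mem _
  | add a c _ _ ha hc => rw [map_add]; exact Submodule.add_mem _ ha hc
  | smul s a _ ha => rw [map_smul]; exact Submodule.smul_mem _ _ ha

theorem mem3 {x y v : M} (r s t : F) : r • x + s • y + t • v ∈ Submodule.span F {x, y, v} := by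
  refine Submodule.add_mem _ (Submodule.add_mem _ ?_ ?_) ?_
  · exact Submodule.smul_mem _ _ (Submodule.subset_span (by simp))
  · exact Submodule.smul_mem _ _ (Submodule.subset_span (by simp))
  · exact Submodule.smul_mem _ _ (Submodule.subset_span (by simp))

/-- the stable subspace generated by the hexacode relation -/
theorem Hx.U_stable {ζ β : P} (hh : Half ζ z g β) (h : Hx ρ z g b w0 w1 w2 w3 w4 w5) (hb : b * b + b + 1 = 0)
    (h2 : (2 : F) = 0) : St ρ (Submodule.span F {w0 + b • w1 + b • w2 + w3, w1 + b • w2 + b • w3 + w4,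
      w5 + (b * b) • w2 + w1 + w3}) := by
  apply stab_of_gen hh
  · apply span3_stable
    · rw [map_add, map_add, map_add, map_smul, map_smul, h.z0, h.z1, h.z2, h.z3]
      exact Submodule.subset_span (by simp)
    · rw [map_add, map_add, map_add, map_smul, map_smul, h.z1, h.z2, h.z3, h.z4]
      have : w2 + b • w3 + b • w4 + w0 = (1 : F) • (w0 + b • w1 + b • w2 + w3) + b • (w1 + b • w2 + b • w3 + w4) +
          (0 : F) • (w5 + (b * b) • w2 + w1 + w3) := by
        match_scalars <;> grind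
      rw [this]
      exact mem3 _ _ _
    · rw [map_add, map_add, map_add, map_smul, h.z1, h.z2, h.z3, h.z5]
      have : w5 + (b * b) • w3 + w2 + w4 = (0 : F) • (w0 + b • w1 + b • w2 + w3) + (1 : F) • (w1 + b • w2 + b • w3 + w4) +
          (1 : F) • (w5 + (b * b) • w2 + w1 + w3) := by
        match_scalars <;> grind
      rw [this]
      exact mem3 _ _ _
  · apply span3_stable
    · rw [map_add, map_add, map_add, map_smul, map_smul, h.g0, h.g1, h.g2, h.g3]
      have : w5 + b • b • w2 + b • (b * b) • w1 + w3 = (0 : F) • (w0 + b • w1 + b • w2 + w3) +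
          (0 : F) • (w1 + b • w2 + b • w3 + w4) + (1 : F) • (w5 + (b * b) • w2 + w1 + w3) := by
        match_scalars <;> grind
      rw [this]
      exact mem3 _ _ _
    · rw [map_add, map_add, map_add, map_smul, map_smul, h.g1, h.g2, h.g3, h.g4]
      have : b • w2 + b • (b * b) • w1 + b • w3 + w4 = (0 : F) • (w0 + b • w1 + b • w2 + w3) +
          (1 : F) • (w1 + b • w2 + b • w3 + w4) + (0 : F) • (w5 + (b * b) • w2 + w1 + w3) := by
        match_scalars <;> grind
      rw [this]
      exact mem3 _ _ _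
    · rw [map_add, map_add, map_add, map_smul, h.g1, h.g2, h.g3, h.g5]
      have : w0 + (b * b) • (b * b) • w1 + b • w2 + w3 = (1 : F) • (w0 + b • w1 + b • w2 + w3) +
          (0 : F) • (w1 + b • w2 + b • w3 + w4) + (0 : F) • (w5 + (b * b) • w2 + w1 + w3) := by
        match_scalars <;> grind
      rw [this]
      exact mem3 _ _ _

/-- if the relation `r` is zero, all the relations hold -/
theorem Hx.rels (h : Hx ρ z g b w0 w1 w2 w3 w4 w5) (hb : b * b + b + 1 = 0)
    (h2 : (2 : F) = 0) (hr : w0 + b • w1 + b • w2 + w3 = 0) :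
    w3 = w0 + b • w1 + b • w2 ∧ w5 = w0 + (b * b) • w1 + w2 ∧ w4 = b • w0 + b • w1 + w2 := by
  have e1 : w3 = w0 + b • w1 + b • w2 := by
    have : w3 = (w0 + b • w1 + b • w2 + w3) - (w0 + b • w1 + b • w2) := by abel
    rw [hr] at this
    rw [this]
    match_scalars <;> grind
  have e2 : w5 + (b * b) • w2 + w1 + w3 = 0 := by
    have := congrArg (ρ g) hr
    rw [map_add, map_add, map_add, map_smul, map_smul, h.g0, h.g1, h.g2, h.g3, map_zero] at this
    rw [← this]
    match_scalars <;> grind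
  have e3 : w1 + b • w2 + b • w3 + w4 = 0 := by
    have := congrArg (ρ z) hr
    rw [map_add, map_add, map_add, map_smul, map_smul, h.z0, h.z1, h.z2, h.z3, map_zero] at this
    exact this
  refine ⟨e1, ?_, ?_⟩
  · have : w5 = (w5 + (b * b) • w2 + w1 + w3) - ((b * b) • w2 + w1 + w3) := by abel
    rw [e2] at this
    rw [this, e1]
    match_scalars <;> grind
  · have : w4 = (w1 + b • w2 + b • w3 + w4) - (w1 + b • w2 + b • w3) := by abel
    rw [e3] at this
    rw [this, e1]
    match_scalars <;> grind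

theorem Hx.S_stable {ζ β : P} (hh : Half ζ z g β) (h : Hx ρ z g b w0 w1 w2 w3 w4 w5) (hb : b * b + b + 1 = 0)
    (h2 : (2 : F) = 0) (hr : w0 + b • w1 + b • w2 + w3 = 0) : St ρ (Submodule.span F {w0, w1, w2}) := by
  obtain ⟨e3, e5, -⟩ := h.rels hb h2 hr
  apply stab_of_gen hh
  · apply span3_stable
    · rw [h.z0]; exact Submodule.subset_span (by simp)
    · rw [h.z1]; exact Submodule.subset_span (by simp)
    · rw [h.z2, e3]
      have : w0 + b • w1 + b • w2 = (1 : F) • w0 + b • w1 + b • w2 := by rw [one_smul]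
      rw [this]; exact mem3 _ _ _
  · apply span3_stable
    · rw [h.g0, e5]
      have : w0 + (b * b) • w1 + w2 = (1 : F) • w0 + (b * b) • w1 + (1 : F) • w2 := by rw [one_smul, one_smul]
      rw [this]; exact mem3 _ _ _
    · rw [h.g1]
      exact Submodule.smul_mem _ _ (Submodule.subset_span (by simp))
    · rw [h.g2]
      exact Submodule.smul_mem _ _ (Submodule.subset_span (by simp))

theorem Hx.w5_mem (h : Hx ρ z g b w0 w1 w2 w3 w4 w5) (hb : b * b + b + 1 = 0)
    (h2 : (2 : F) = 0) (hr : w0 + b • w1 + b • w2 + w3 = 0) : w5 ∈ Submodule.span F {w0, w1, w2} := by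
  obtain ⟨e3, e5, -⟩ := h.rels hb h2 hr
  have : w0 + (b * b) • w1 + w2 = (1 : F) • w0 + (b * b) • w1 + (1 : F) • w2 := by rw [one_smul, one_smul]
  rw [e5, this]; exact mem3 _ _ _

end

end Cfsg.Agent.H958.SixC
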