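import Mathlib
import Cfsg.Agent.H958.SixC.Hex

/-!
# S5927, S5928: `sixc_two`, the hexacode, dimensions (helper958)
-/

set_option autoImplicit false
set_option linter.unusedSectionVars false

namespace Cfsg.Agent.H958.SixC

open Module
open Cfsg.Agent.H952.F4 (ev es)

section
variable {F M : Type*} [Field F] [AddCommGroup M] [Module F M]

theorem range3 (x y v : M) : Set.range ![x, y, v] = {x, y, v} := by
  ext a
  simp [eq_comm]
  tauto

theorem range6 (x0 x1 x2 x3 x4 x5 : M) : Set.range ![x0, x1, x2, x3, x4, x5] = {x0, x1, x2, x3, x4, x5} := by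
  ext a
  simp [eq_comm]
  tauto

theorem finrank_span3 (x y v : M) : finrank F ↥(Submodule.span F ({x, y, v} : Set M)) ≤ 3 := by
  have h := finrank_range_le_card (R := F) ![x, y, v]
  rw [range3] at h
  exact h

theorem finrank_span6 (x0 x1 x2 x3 x4 x5 : M) :
    finrank F ↥(Submodule.span F ({x0, x1, x2, x3, x4, x5} : Set M)) ≤ 6 := by
  have h := finrank_range_le_card (R := F) ![x0, x1, x2, x3, x4, x5]
  rw [range6] at h
  exact h

theorem indep3 {x y v : M} (h : finrank F ↥(Submodule.span F ({x, y, v} : Set M)) = 3) {r s t : F}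
    (h0 : r • x + s • y + t • v = 0) : r = 0 ∧ s = 0 ∧ t = 0 := by
  have h1 : LinearIndependent F ![x, y, v] := by
    rw [linearIndependent_iff_card_eq_finrank_span, range3]
    exact h.symm
  have h2 := Fintype.linearIndependent_iff.1 h1 ![r, s, t] (by
    simpa [Fin.sum_univ_three] using h0)
  exact ⟨h2 0, h2 1, h2 2⟩

theorem indep3' {x y v : M} (h : finrank F ↥(Submodule.span F ({x, y, v} : Set M)) = 3) {r s t r' s' t' : F}
    (h0 : r • x + s • y + t • v = r' • x + s' • y + t' • v) : r = r' ∧ s = s' ∧ t = t' := by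
  have h1 : (r - r') • x + (s - s') • y + (t - t') • v = 0 := by
    have : (r - r') • x + (s - s') • y + (t - t') • v = (r • x + s • y + t • v) - (r' • x + s' • y + t' • v) := by
      module
    rw [this, h0, sub_self]
  obtain ⟨a, b, c⟩ := indep3 h h1
  exact ⟨sub_eq_zero.1 a, sub_eq_zero.1 b, sub_eq_zero.1 c⟩

theorem indep6 {x0 x1 x2 x3 x4 x5 : M}
    (h : finrank F ↥(Submodule.span F ({x0, x1, x2, x3, x4, x5} : Set M)) = 6) {c : Fin 6 → F}
    (h0 : c 0 • x0 + c 1 • x1 + c 2 • x2 + c 3 • x3 + c 4 • x4 + c 5 • x5 = 0) : ∀ i, c i = 0 := by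
  have h1 : LinearIndependent F ![x0, x1, x2, x3, x4, x5] := by
    rw [linearIndependent_iff_card_eq_finrank_span, range6]
    exact h.symm
  exact Fintype.linearIndependent_iff.1 h1 c (by
    simpa [Fin.sum_univ_six] using h0)

theorem three_of {W : Submodule F M} [FiniteDimensional F ↥W] (h3 : finrank F ↥W ≤ 3) (hd : 3 ∣ finrank F ↥W) {w : M}
    (hw : w ∈ W) (h0 : w ≠ 0) : finrank F ↥W = 3 := by
  have h1 : 0 < finrank F ↥W := by
    rw [Module.finrank_pos_iff]
    exact ⟨⟨⟨w, hw⟩, 0, fun h => h0 (congrArg Subtype.val h)⟩⟩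
  omega

end

variable {F P M : Type*} [Field F] [Group P] [AddCommGroup M] [Module F M] [FiniteDimensional F M]
variable {ρ : Representation F P M} {ζ z g β : P} {b : F}

theorem S3_stable (hh : Half ζ z g β) (hs : Sc ρ β b) {w : M} (k : KF ρ z g w) (hr : rr ρ z g b w = 0) :
    St ρ (S3 ρ z g w) ∧ w ∈ S3 ρ z g w := by
  have h := Hx.of_KF hh hs k
  exact ⟨h.S_stable hh hs.b2 hs.two hr, h.w5_mem hs.b2 hs.two hr⟩

theorem S3_le {X : Submodule F M} (hX : St ρ X) {w : M} (hw : w ∈ X) : S3 ρ z g w ≤ X := by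
  rw [S3, Submodule.span_le]
  rintro x (rfl | rfl | rfl)
  · exact hX _ _ hw
  · exact hX _ _ (hX _ _ hw)
  · exact hX _ _ (hX _ _ (hX _ _ hw))

theorem S3_three (hd : ∀ W : Submodule F M, St ρ W → 3 ∣ finrank F ↥W) (hh : Half ζ z g β) (hs : Sc ρ β b) {w : M}
    (k : KF ρ z g w) (hr : rr ρ z g b w = 0) (h0 : w ≠ 0) : finrank F ↥(S3 ρ z g w) = 3 := by
  obtain ⟨h1, h2⟩ := S3_stable hh hs k hr
  exact three_of (finrank_span3 _ _ _) (hd _ h1) h2 h0

/-- the subspace generated by the relation -/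
def U3 (ρ : Representation F P M) (z g : P) (b : F) (w : M) : Submodule F M :=
  Submodule.span F {rr ρ z g b w, ρ z (rr ρ z g b w), ρ g (rr ρ z g b w)}

theorem U3_stable (hh : Half ζ z g β) (hs : Sc ρ β b) {w : M} (k : KF ρ z g w) : St ρ (U3 ρ z g b w) := by
  have h := Hx.of_KF hh hs k
  have h1 := h.U_stable hh hs.b2 hs.two
  have e1 : ρ z (rr ρ z g b w) = ρ z (ρ g w) + b • ρ z (ρ z (ρ g w)) + b • ρ z (ρ z (ρ z (ρ g w))) +
      ρ z (ρ z (ρ z (ρ z (ρ g w)))) := by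
    rw [rr, map_add, map_add, map_add, map_smul, map_smul]
  have hb := hs.b2
  have h2 := hs.two
  have e2 : ρ g (rr ρ z g b w) = w + (b * b) • ρ z (ρ z (ρ g w)) + ρ z (ρ g w) + ρ z (ρ z (ρ z (ρ g w))) := by
    rw [rr, map_add, map_add, map_add, map_smul, map_smul, h.g0, h.g1, h.g2, h.g3]
    match_scalars <;> grind
  rw [U3, e1, e2]
  exact h1

theorem U3_le {X : Submodule F M} (hX : St ρ X) {w : M} (hw : w ∈ X) : U3 ρ z g b w ≤ X := by
  have hr : rr ρ z g b w ∈ X := by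
    rw [rr]
    have h1 := hX g _ hw
    have h2 := hX z _ h1
    have h3 := hX z _ h2
    have h4 := hX z _ h3
    exact X.add_mem (X.add_mem (X.add_mem h1 (X.smul_mem _ h2)) (X.smul_mem _ h3)) h4
  rw [U3, Submodule.span_le]
  rintro x (rfl | rfl | rfl)
  · exact hr
  · exact hX _ _ hr
  · exact hX _ _ hr

/-- action on the basis of `U3` -/
theorem U3_act (hh : Half ζ z g β) (hs : Sc ρ β b) {w : M} (k : KF ρ z g w) {r r1 r2 : M} (hr : r = rr ρ z g b w)
    (hr1 : r1 = ρ z r) (hr2 : r2 = ρ g r) :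
    ρ z r1 = r + b • r1 ∧ ρ z r2 = r1 + r2 ∧ ρ g r1 = r1 ∧ ρ g r2 = r := by
  have h := Hx.of_KF hh hs k
  have hb := hs.b2
  have h2 := hs.two
  have e1 : r1 = ρ z (ρ g w) + b • ρ z (ρ z (ρ g w)) + b • ρ z (ρ z (ρ z (ρ g w))) +
      ρ z (ρ z (ρ z (ρ z (ρ g w)))) := by
    rw [hr1, hr, rr, map_add, map_add, map_add, map_smul, map_smul]
  have e2 : r2 = w + (b * b) • ρ z (ρ z (ρ g w)) + ρ z (ρ g w) + ρ z (ρ z (ρ z (ρ g w))) := by
    rw [hr2, hr, rr, map_add, map_add, map_add, map_smul, map_smul, h.g0, h.g1, h.g2, h.g3]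
    match_scalars <;> grind
  rw [rr] at hr
  refine ⟨?_, ?_, ?_, ?_⟩
  · rw [e1, hr, map_add, map_add, map_add, map_smul, map_smul, h.z4]
    match_scalars <;> grind
  · rw [e1, e2, map_add, map_add, map_add, map_smul, h.z5]
    match_scalars <;> grind
  · rw [e1, map_add, map_add, map_add, map_smul, map_smul, h.g1, h.g2, h.g3, h.g4]
    match_scalars <;> grind
  · rw [e2, hr, map_add, map_add, map_add, map_smul, h.g1, h.g2, h.g3]
    match_scalars <;> grind

/-- a vector fixed by `A₅` in a 3-dimensional stable subspace satisfies the relation -/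
theorem rr_zero (hd : ∀ W : Submodule F M, St ρ W → 3 ∣ finrank F ↥W) (hh : Half ζ z g β) (hs : Sc ρ β b)
    {W : Submodule F M} (hW : St ρ W) (h3 : finrank F ↥W = 3) {w : M} (hw : w ∈ W) (k : KF ρ z g w) (h0 : w ≠ 0) :
    rr ρ z g b w = 0 := by
  by_contra hne
  have hU := U3_stable hh hs k
  have hUW := U3_le (b := b) (z := z) (g := g) hW hw
  have hmem : rr ρ z g b w ∈ U3 ρ z g b w := Submodule.subset_span (by simp)
  have hU3 : finrank F ↥(U3 ρ z g b w) = 3 := three_of (finrank_span3 _ _ _) (hd _ hU) hmem hne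
  have hUe : U3 ρ z g b w = W := Submodule.eq_of_le_of_finrank_eq hUW (hU3.trans h3.symm)
  rw [← hUe] at hw
  obtain ⟨a1, a2, a3, a4⟩ := U3_act hh hs k (r := rr ρ z g b w) rfl rfl rfl
  have hrdef : rr ρ z g b w = rr ρ z g b w := rfl
  conv_rhs at hrdef => rw [rr]
  rw [U3] at hw hU3
  set r := rr ρ z g b w with hr
  set r1 := ρ z r with hr1
  set r2 := ρ g r with hr2
  rw [Submodule.mem_span_triple] at hw
  obtain ⟨p, q, s, hpq⟩ := hw
  have hb := hs.b2
  have h2 := hs.two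
  -- `z w = w`
  have hz : q • r + (p + q * b + s) • r1 + s • r2 = p • r + q • r1 + s • r2 := by
    have hk := k.1
    rw [← hpq, map_add, map_add, map_smul, map_smul, map_smul, a1, a2, ← hr1] at hk
    rw [← hk]
    module
  obtain ⟨e1, e2, -⟩ := indep3' hU3 hz
  have e3 : s = q * b := by grind
  subst e1
  rw [e3] at hpq
  clear hz e2 e3
  -- the relation in terms of `r, r1, r2`
  have w0 : ρ g w = (q * b) • r + q • r1 + q • r2 := by
    rw [← hpq, map_add, map_add, map_smul, map_smul, map_smul, a3, a4, ← hr2]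
    module
  have w1 : ρ z (ρ g w) = q • r + q • r1 + q • r2 := by
    rw [w0, map_add, map_add, map_smul, map_smul, map_smul, a1, a2, ← hr1]
    match_scalars <;> grind
  have w2 : ρ z (ρ z (ρ g w)) = q • r + (q * b) • r1 + q • r2 := by
    rw [w1, map_add, map_add, map_smul, map_smul, map_smul, a1, a2, ← hr1]
    match_scalars <;> grind
  have w3 : ρ z (ρ z (ρ z (ρ g w))) = (q * b) • r + (q * (b * b)) • r1 + q • r2 := by
    rw [w2, map_add, map_add, map_smul, map_smul, map_smul, a1, a2, ← hr1]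
    match_scalars <;> grind
  rw [w3, w2, w1, w0] at hrdef
  have hfin : (1 : F) • r + (0 : F) • r1 + (0 : F) • r2 = (0 : F) • r + (q * (b * b)) • r1 + (0 : F) • r2 := by
    conv_lhs => rw [one_smul, hrdef]
    match_scalars <;> grind
  obtain ⟨e4, -, -⟩ := indep3' hU3 hfin
  exact one_ne_zero e4

/-- a stable subspace containing a vector fixed by `A₅` contains a stable 3-dimensional subspace -/
theorem exists_sub3 (hd : ∀ W : Submodule F M, St ρ W → 3 ∣ finrank F ↥W) (hh : Half ζ z g β) (hs : Sc ρ β b)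
    {X : Submodule F M} (hX : St ρ X) {w : M} (hw : w ∈ X) (k : KF ρ z g w) (h0 : w ≠ 0) :
    ∃ W ≤ X, St ρ W ∧ finrank F ↥W = 3 := by
  by_cases hr : rr ρ z g b w = 0
  · exact ⟨_, S3_le hX hw, (S3_stable hh hs k hr).1, S3_three hd hh hs k hr h0⟩
  · exact ⟨_, U3_le hX hw, U3_stable hh hs k, three_of (finrank_span3 _ _ _) (hd _ (U3_stable hh hs k))
      (Submodule.subset_span (by simp)) hr⟩

/-- the 3-dimensional stable subspace generated by a fixed vector: coordinates -/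
theorem S3_coord (hd : ∀ W : Submodule F M, St ρ W → 3 ∣ finrank F ↥W) (hh : Half ζ z g β) (hs : Sc ρ β b) {w : M}
    (k : KF ρ z g w) (hr : rr ρ z g b w = 0) (h0 : w ≠ 0) {v : M} (hv : v ∈ S3 ρ z g w) (hz : ρ z v = v) :
    ∃ c : F, v = c • w := by
  have h := Hx.of_KF hh hs k
  have h3 := S3_three hd hh hs k hr h0
  have hb := hs.b2
  have h2 := hs.two
  obtain ⟨e3, e5, -⟩ := h.rels hb h2 hr
  rw [S3] at hv h3
  rw [Submodule.mem_span_triple] at hv
  obtain ⟨p, q, s, hpq⟩ := hv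
  have hz' : s • ρ g w + (p + s * b) • ρ z (ρ g w) + (q + s * b) • ρ z (ρ z (ρ g w)) =
      p • ρ g w + q • ρ z (ρ g w) + s • ρ z (ρ z (ρ g w)) := by
    rw [hpq]
    conv_rhs => rw [← hz, ← hpq, map_add, map_add, map_smul, map_smul, map_smul, e3]
    module
  obtain ⟨e1, e2, e4⟩ := indep3' h3 hz'
  refine ⟨s, ?_⟩
  conv_rhs => rw [e5]
  rw [← hpq]
  match_scalars <;> grind

/-- the 6-dimensional stable subspace generated by a fixed vector -/
def N6 (ρ : Representation F P M) (z g : P) (w : M) : Submodule F M :=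
  Submodule.span F {ρ g w, ρ z (ρ g w), ρ z (ρ z (ρ g w)), ρ z (ρ z (ρ z (ρ g w))), ρ z (ρ z (ρ z (ρ z (ρ g w)))), w}

theorem N6_stable (hh : Half ζ z g β) (hs : Sc ρ β b) {w : M} (k : KF ρ z g w) : St ρ (N6 ρ z g w) := by
  have h := Hx.of_KF hh hs k
  have key : ∀ T : M →ₗ[F] M, (∀ x ∈ ({ρ g w, ρ z (ρ g w), ρ z (ρ z (ρ g w)), ρ z (ρ z (ρ z (ρ g w))),
      ρ z (ρ z (ρ z (ρ z (ρ g w)))), w} : Set M), T x ∈ N6 ρ z g w) → ∀ x ∈ N6 ρ z g w, T x ∈ N6 ρ z g w := by
    intro T hT x hx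
    rw [N6] at hx
    induction hx using Submodule.span_induction with
    | mem a ha => exact hT a ha
    | zero => rw [map_zero]; exact Submodule.zero_mem _
    | add a c _ _ ha hc => rw [map_add]; exact Submodule.add_mem _ ha hc
    | smul s a _ ha => rw [map_smul]; exact Submodule.smul_mem _ _ ha
  have hm : ∀ x ∈ ({ρ g w, ρ z (ρ g w), ρ z (ρ z (ρ g w)), ρ z (ρ z (ρ z (ρ g w))),
      ρ z (ρ z (ρ z (ρ z (ρ g w)))), w} : Set M), x ∈ N6 ρ z g w := fun x hx => Submodule.subset_span hx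
  apply stab_of_gen hh
  · apply key
    rintro x (rfl | rfl | rfl | rfl | rfl | rfl)
    · exact hm _ (by simp)
    · exact hm _ (by simp)
    · exact hm _ (by simp)
    · exact hm _ (by simp)
    · rw [h.z4]; exact hm _ (by simp)
    · rw [k.1]; exact hm _ (by simp)
  · apply key
    rintro x (rfl | rfl | rfl | rfl | rfl | rfl)
    · rw [h.g0]; exact hm _ (by simp)
    · rw [h.g1]; exact Submodule.smul_mem _ _ (hm _ (by simp))
    · rw [h.g2]; exact Submodule.smul_mem _ _ (hm _ (by simp))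
    · rw [h.g3]; exact hm _ (by simp)
    · rw [h.g4]; exact hm _ (by simp)
    · exact hm _ (by simp)

theorem N6_le {X : Submodule F M} (hX : St ρ X) {w : M} (hw : w ∈ X) : N6 ρ z g w ≤ X := by
  have h1 := hX g _ hw
  have h2 := hX z _ h1
  have h3 := hX z _ h2
  have h4 := hX z _ h3
  have h5 := hX z _ h4
  rw [N6, Submodule.span_le]
  rintro x (rfl | rfl | rfl | rfl | rfl | rfl)
  · exact h1
  · exact h2
  · exact h3
  · exact h4
  · exact h5
  · exact hw

theorem N6_mem (w : M) : w ∈ N6 ρ z g w := Submodule.subset_span (by simp)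

theorem N6_six (hd : ∀ W : Submodule F M, St ρ W → 3 ∣ finrank F ↥W) (hh : Half ζ z g β) (hs : Sc ρ β b) {w : M}
    (k : KF ρ z g w) (hr : rr ρ z g b w ≠ 0) : finrank F ↥(N6 ρ z g w) = 6 := by
  have h0 : w ≠ 0 := by
    rintro rfl
    apply hr
    rw [rr]
    simp
  have hst := N6_stable hh hs k
  have h1 := hd _ hst
  have h2 : finrank F ↥(N6 ρ z g w) ≤ 6 := finrank_span6 _ _ _ _ _ _
  have h3 : finrank F ↥(N6 ρ z g w) ≠ 3 := fun h3 => hr (rr_zero hd hh hs hst h3 (N6_mem w) k h0)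
  have h4 : 0 < finrank F ↥(N6 ρ z g w) := by
    rw [Module.finrank_pos_iff]
    exact ⟨⟨⟨w, N6_mem w⟩, 0, fun h => h0 (congrArg Subtype.val h)⟩⟩
  omega

/-- vectors of `N6` fixed by `z` -/
theorem N6_fix (hd : ∀ W : Submodule F M, St ρ W → 3 ∣ finrank F ↥W) (hh : Half ζ z g β) (hs : Sc ρ β b) {w : M}
    (k : KF ρ z g w) (hr : rr ρ z g b w ≠ 0) {v : M} (hv : v ∈ N6 ρ z g w) (hz : ρ z v = v) :
    ∃ c d : F, v = c • w + d • (ρ g w + ρ z (ρ g w) + ρ z (ρ z (ρ g w)) + ρ z (ρ z (ρ z (ρ g w))) +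
      ρ z (ρ z (ρ z (ρ z (ρ g w))))) := by
  have h6 := N6_six hd hh hs k hr
  have h := Hx.of_KF hh hs k
  rw [N6] at hv h6
  have hv' : ∃ c : Fin 6 → F, c 0 • ρ g w + c 1 • ρ z (ρ g w) + c 2 • ρ z (ρ z (ρ g w)) +
      c 3 • ρ z (ρ z (ρ z (ρ g w))) + c 4 • ρ z (ρ z (ρ z (ρ z (ρ g w)))) + c 5 • w = v := by
    rw [← range6, Submodule.mem_span_range_iff_exists_fun] at hv
    obtain ⟨c, hc⟩ := hv
    exact ⟨c, by simpa [Fin.sum_univ_six] using hc⟩
  obtain ⟨c, hc⟩ := hv'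
  have hz' : (c 0 - c 4) • ρ g w + (c 1 - c 0) • ρ z (ρ g w) + (c 2 - c 1) • ρ z (ρ z (ρ g w)) +
      (c 3 - c 2) • ρ z (ρ z (ρ z (ρ g w))) + (c 4 - c 3) • ρ z (ρ z (ρ z (ρ z (ρ g w)))) + (0 : F) • w = 0 := by
    have e : v - ρ z v = 0 := by rw [hz, sub_self]
    rw [← hc, map_add, map_add, map_add, map_add, map_add, map_smul, map_smul, map_smul, map_smul, map_smul, map_smul,
      h.z4, k.1] at e
    rw [← e]
    module
  have hi := indep6 h6 (c := ![c 0 - c 4, c 1 - c 0, c 2 - c 1, c 3 - c 2, c 4 - c 3, 0]) hz'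
  have i0 : c 0 - c 4 = 0 := hi 0
  have i1 : c 1 - c 0 = 0 := hi 1
  have i2 : c 2 - c 1 = 0 := hi 2
  have i3 : c 3 - c 2 = 0 := hi 3
  refine ⟨c 5, c 0, ?_⟩
  have j1 : c 1 = c 0 := sub_eq_zero.1 i1
  have j2 : c 2 = c 0 := (sub_eq_zero.1 i2).trans j1
  have j3 : c 3 = c 0 := (sub_eq_zero.1 i3).trans j2
  have j4 : c 4 = c 0 := (sub_eq_zero.1 i0).symm
  rw [← hc, j1, j2, j3, j4]
  module

end Cfsg.Agent.H958.SixC
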